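import Cfsg.Agent.H379.BR.Su
import Cfsg.Agent.H487.BR.TPrim
import Cfsg.Agent.H212.BR.Gen
import Cfsg.Agent.H744.BR.SlMod

/-!
# HUB BR (S5715, S5716): the family `SU_n(q)` (helper379)
-/

set_option autoImplicit false
set_option linter.unusedSectionVars false

namespace Cfsg.Agent.H379.BR

open Cfsg Cfsg.Agent.H883.BR Cfsg.Agent.LieClassical.HermBasic Cfsg.Agent.ClassicalGeometry.UnitTransv

section

variable {F₀ : Type} [Field F₀] [Fintype F₀] {n q : ℕ} (hF : Fintype.card F₀ = q ^ 2) {K : Type*} [Field K]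
  [Algebra F₀ K] {F : Subfield K} [Finite F] (h3 : 3 ≤ Nat.card F)
  (hFF : ∀ t : K, t ∈ F ↔ ∃ t₀ : F₀, t₀ ^ q = t₀ ∧ algebraMap F₀ K t₀ = t)
include hF h3 hFF

theorem rt_mem_all (hn : 2 ≤ n) {c : F₀} (hc0 : c ≠ 0) (hc : c + c ^ q = 0)
    {S : Submodule K (Module.End K (Fin n → K))} (hS : Inv (ad (rho n F₀ q K)) ⊤ S) {v w : Fin n → F₀}
    (hv : hermForm n F₀ q v v = 0) (hw : hermForm n F₀ q w w = 0) (hv0 : v ≠ 0) (hw0 : w ≠ 0)
    (h : rt q K c v ∈ S) : rt q K c w ∈ S :=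
  root_join hF hc0 (fun u hu X hX => (H487.BR.root_mem h3 hS (rt_Rt hF hFF hc hu) hX).2) hv hw hv0 hw0 h

/-- **invariant subspaces of `End V`** -/
theorem sub_su (hn : 2 ≤ n) {S : Submodule K (Module.End K (Fin n → K))} (hS : Inv (ad (rho n F₀ q K)) ⊤ S) :
    (∀ X ∈ S, ∃ c : K, X = c • 1) ∨ ∀ X : Module.End K (Fin n → K), LinearMap.trace K _ X = 0 → X ∈ S := by
  obtain ⟨c, hc0, hc⟩ := exists_trace_zero_ne hF
  by_cases h : ∀ X ∈ S, ∃ c : K, X = c • 1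
  · exact Or.inl h
  right
  push Not at h
  obtain ⟨X, hXS, hX⟩ := h
  have h1 : ∃ v : Fin n → F₀, v ≠ 0 ∧ hermForm n F₀ q v v = 0 ∧ rt q K c v * X * rt q K c v ≠ 0 := by
    by_contra hcon
    push Not at hcon
    obtain ⟨a, ha⟩ := scalar_of_root hF hc0 hcon
    exact hX a ha
  obtain ⟨v, hv0, hv, hne⟩ := h1
  have h2 := (H487.BR.root_mem h3 hS (rt_Rt hF hFF hc hv) hXS).2
  rw [rt_mul_mul] at h2 hne
  have h4 : algebraMap F₀ K c * fn q K v (X (vk K v)) ≠ 0 := fun h0 => hne (by rw [h0, zero_smul])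
  have h5 : rt q K c v ∈ S := by
    have h6 := S.smul_mem (algebraMap F₀ K c * fn q K v (X (vk K v)))⁻¹ h2
    rwa [smul_smul, inv_mul_cancel₀ h4, one_smul] at h6
  intro Y hY
  refine Submodule.span_le.2 ?_ (span_rt hF hc0 hY)
  rintro _ ⟨w, hw0, hw, rfl⟩
  exact rt_mem_all hF h3 hFF hn hc0 hc hS hv hw hv0 hw0 h5

/-- **`V` is primitive and tensor indecomposable** -/
theorem tprim_su (hn : 2 ≤ n) : TPrim (rho n F₀ q K) := by
  obtain ⟨c, hc0, hc⟩ := exists_trace_zero_ne hF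
  refine H487.BR.tprim_of_rank_one h3 {a | ∃ v : Fin n → F₀, v ≠ 0 ∧ hermForm n F₀ q v v = 0 ∧ a = rt q K c v} ?_ ?_ ?_
  · rintro _ ⟨v, -, hv, rfl⟩
    exact ⟨rt_Rt hF hFF hc hv, vk K v, (algebraMap F₀ K c) • fn q K v, fun y => rt_apply c v y⟩
  · intro X hX
    refine scalar_of_root hF hc0 fun v hv0 hv => ?_
    rw [hX _ ⟨v, hv0, hv, rfl⟩, mul_assoc, rt_sq c hv, mul_zero]
  · rintro S hS ⟨_, ⟨v, hv0, hv, rfl⟩, -, h⟩ _ ⟨w, hw0, hw, rfl⟩
    exact rt_mem_all hF h3 hFF hn hc0 hc hS hv hw hv0 hw0 h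

end


/-- **the family `SU_n(q)`** -/
theorem fam_su (n : ℕ) (hn : 3 ≤ n) : ∃ q₀ : ℕ, ∀ (F : Type) [Field F] [Fintype F] (q : ℕ),
    Fintype.card F = q ^ 2 → q₀ ≤ q → HasFam.{0, 0} n q (SU n F q) := by
  obtain ⟨q₁, hq₁⟩ := H212.BR.count_of_card.{0} (n ^ 2 - 1) (2 ^ n)
  refine ⟨q₁ + 4 * n ^ 2 + 3, fun F _ _ q hF hq => ?_⟩
  obtain ⟨p, hp⟩ := CharP.exists F
  have hpr : Fact p.Prime := ⟨CharP.char_is_prime F p⟩
  obtain ⟨E, hE1, hE2, hE3, hE4⟩ := H212.BR.exists_subfield_sq F (q := q) (by rw [Nat.card_eq_fintype_card]; exact hF)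
  have hFF : ∀ t : AlgebraicClosure F, t ∈ E ↔ ∃ t₀ : F, t₀ ^ q = t₀ ∧ algebraMap F (AlgebraicClosure F) t₀ = t := by
    intro t
    constructor
    · intro ht
      obtain ⟨a, ha⟩ := (H212.BR.mem_base F).1 (hE4 ht)
      refine ⟨a, ?_, ha⟩
      apply (algebraMap F (AlgebraicClosure F)).injective
      rw [map_pow, ha]
      exact (hE3 t).1 ht
    · rintro ⟨a, ha, rfl⟩
      rw [hE3, ← map_pow, ha]
  have h32 : ¬ (n = 3 ∧ q = 2) := by omega
  have h3 : 3 ≤ Nat.card E := by rw [hE2]; omega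
  have hqs := qs hF hn h32
  obtain ⟨c, hc0, hc⟩ := exists_trace_zero_ne hF
  refine ⟨p, n ^ 2 - 1, AlgebraicClosure F, inferInstance, E, Fin n → AlgebraicClosure F,
    H744.BR.SlW (AlgebraicClosure F) (Fin n → AlgebraicClosure F), inferInstance,
    inferInstance, inferInstance, inferInstance, rho n F q (AlgebraicClosure F),
    H744.BR.sg (rho n F q (AlgebraicClosure F)),
    H744.BR.fam_core hpr.out (H212.BR.charP_closure F p) inferInstance (H212.BR.locfin F) hE1 hE2 inferInstance hqs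
      inferInstance (by rw [Module.finrank_fin_fun]) (by omega) rho_inj (irr hF (by omega))
      (tprim_su hF h3 hFF (by omega)) ⟨_, _, oneP hF hFF hn h32 hc0 hc, polyDeg hF hc hFF⟩ ?_ ?_ (trace_mul hF hFF)
      (by omega) ?_⟩
  · intro S hS
    exact sub_su hF h3 hFF (by omega) hS
  · exact hq₁ q (SU n F q) (by omega) hqs (le_card_quot hF hn) (card_le hF (by omega))
  · exact fun k hk hk' => pw hF hn k hk hk'

end Cfsg.Agent.H379.BR
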